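import Cfsg.Agent.Tits.Exchange

/-!
# The Iwahori–Hecke algebra of a finite Coxeter group with several real parameters: the centre (helper139)

The version with several parameters of `H116/HeckeA.lean` (helper116; same proofs). `t : I → ℝ` is the family of the
parameters, `Par cs t` : `t i = t j` if `s_i x = x s_j` for some `x`.

`L cs t i`, `R cs t i` : left and right multiplication by `T_{s_i}` in the Hecke algebra, in
coordinates `v : W → ℂ` (`v` stands for `∑ v w T_w`). `Z cs t` : the common kernel of `L i - R i`, the centre.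
`wt cs t w` : the product of the parameters along a reduced word of `w`.
-/

set_option autoImplicit false
set_option linter.unusedSectionVars false

namespace Cfsg.Agent.H139.Hecke

open CoxeterSystem Cfsg.Agent.Tits.Exchange Module
open scoped ComplexConjugate

variable {I W : Type*} {M : CoxeterMatrix I} [Group W] (cs : CoxeterSystem M W)

/-- Left multiplication by `T_{s_i}`. -/
noncomputable def L (t : I → ℝ) (i : I) : Module.End ℂ (W → ℂ) where
  toFun v x := if cs.length (cs.simple i * x) < cs.length x then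
      v (cs.simple i * x) + ((t i : ℂ) - 1) * v x
    else (t i : ℂ) * v (cs.simple i * x)
  map_add' u v := by
    funext x
    simp only [Pi.add_apply]
    split_ifs <;> ring
  map_smul' c v := by
    funext x
    simp only [Pi.smul_apply, smul_eq_mul, RingHom.id_apply]
    split_ifs <;> ring

/-- Right multiplication by `T_{s_i}`. -/
noncomputable def R (t : I → ℝ) (i : I) : Module.End ℂ (W → ℂ) where
  toFun v x := if cs.length (x * cs.simple i) < cs.length x then
      v (x * cs.simple i) + ((t i : ℂ) - 1) * v x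
    else (t i : ℂ) * v (x * cs.simple i)
  map_add' u v := by
    funext x
    simp only [Pi.add_apply]
    split_ifs <;> ring
  map_smul' c v := by
    funext x
    simp only [Pi.smul_apply, smul_eq_mul, RingHom.id_apply]
    split_ifs <;> ring

theorem L_apply (t : I → ℝ) (i : I) (v : W → ℂ) (x : W) :
    L cs t i v x = if cs.length (cs.simple i * x) < cs.length x then
      v (cs.simple i * x) + ((t i : ℂ) - 1) * v x else (t i : ℂ) * v (cs.simple i * x) := rfl

theorem R_apply (t : I → ℝ) (i : I) (v : W → ℂ) (x : W) :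
    R cs t i v x = if cs.length (x * cs.simple i) < cs.length x then
      v (x * cs.simple i) + ((t i : ℂ) - 1) * v x else (t i : ℂ) * v (x * cs.simple i) := rfl

theorem lenL (i : I) (x : W) : cs.length (cs.simple i * x) = cs.length x + 1 ∨
    cs.length (cs.simple i * x) + 1 = cs.length x := cs.length_simple_mul x i

theorem lenR (i : I) (x : W) : cs.length (x * cs.simple i) = cs.length x + 1 ∨
    cs.length (x * cs.simple i) + 1 = cs.length x := cs.length_mul_simple x i

/-- The quadratic relation. -/
theorem L_sq (t : I → ℝ) (i : I) : L cs t i * L cs t i = ((t i : ℂ) - 1) • L cs t i + (t i : ℂ) • 1 := by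
  apply LinearMap.ext
  intro v
  funext x
  simp only [Module.End.mul_apply, LinearMap.add_apply, LinearMap.smul_apply, Module.End.one_apply, Pi.add_apply,
    Pi.smul_apply, smul_eq_mul]
  rw [L_apply, L_apply cs t i v x, L_apply cs t i v (cs.simple i * x)]
  have h1 : cs.simple i * (cs.simple i * x) = x := by simp
  rw [h1]
  rcases lenL cs i x with h | h
  · rw [if_neg (by omega), if_pos (by omega), if_neg (by omega)]
    ring
  · rw [if_pos (by omega), if_neg (by omega), if_pos (by omega)]
    ring

/-- The quadratic relation. -/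
theorem R_sq (t : I → ℝ) (i : I) : R cs t i * R cs t i = ((t i : ℂ) - 1) • R cs t i + (t i : ℂ) • 1 := by
  apply LinearMap.ext
  intro v
  funext x
  simp only [Module.End.mul_apply, LinearMap.add_apply, LinearMap.smul_apply, Module.End.one_apply, Pi.add_apply,
    Pi.smul_apply, smul_eq_mul]
  rw [R_apply, R_apply cs t i v x, R_apply cs t i v (x * cs.simple i)]
  have h1 : x * cs.simple i * cs.simple i = x := by simp
  rw [h1]
  rcases lenR cs i x with h | h
  · rw [if_neg (by omega), if_pos (by omega), if_neg (by omega)]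
    ring
  · rw [if_pos (by omega), if_neg (by omega), if_pos (by omega)]
    ring

theorem eq_of_len {i j : I} {x : W} (h : cs.length (cs.simple i * x) = cs.length (x * cs.simple j))
    (h' : cs.length (cs.simple i * x * cs.simple j) = cs.length x) : cs.simple i * x = x * cs.simple j := by
  rcases lenL cs i x with h1 | h1
  · rcases fold cs h1 (h ▸ h1) with h2 | h2
    · omega
    · exact h2
  · have h3 : cs.simple i * (cs.simple i * x) = x := by simp
    have h4 : cs.length (cs.simple i * (cs.simple i * x)) = cs.length (cs.simple i * x) + 1 := by rw [h3]; omega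
    have h5 : cs.length (cs.simple i * x * cs.simple j) = cs.length (cs.simple i * x) + 1 := by omega
    rcases fold cs h4 h5 with h6 | h6
    · rw [h3] at h6
      omega
    · rw [h3] at h6
      have h7 : x * cs.simple j = cs.simple i * x := by
        conv_lhs => rw [h6]
        simp [mul_assoc]
      exact h7.symm

/-- The parameters are constant on the conjugate fundamental reflections. -/
def Par (t : I → ℝ) : Prop := ∀ (i j : I) (x : W), cs.simple i * x = x * cs.simple j → t i = t j

/-- Left and right multiplications commute. -/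
theorem comm {t : I → ℝ} (hp : Par cs t) (i j : I) : L cs t i * R cs t j = R cs t j * L cs t i := by
  apply LinearMap.ext
  intro v
  funext x
  simp only [Module.End.mul_apply]
  rw [L_apply, R_apply cs t j v x, R_apply cs t j v (cs.simple i * x), R_apply, L_apply cs t i v x,
    L_apply cs t i v (x * cs.simple j), ← mul_assoc (cs.simple i) x (cs.simple j)]
  rcases lenL cs i x with h1 | h1 <;> rcases lenR cs j x with h2 | h2 <;>
    rcases lenR cs j (cs.simple i * x) with h3 | h3
  · rw [if_neg (by omega), if_neg (by omega), if_neg (by omega), if_neg (by omega)]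
    ring
  · have h4 := eq_of_len cs (i := i) (j := j) (x := x) (by omega) (by omega)
    rw [if_neg (by omega), if_pos (by omega), if_neg (by omega), if_pos (by omega), h4, hp i j x h4]
  · exfalso
    rcases lenL cs i (x * cs.simple j) with h4 | h4 <;> rw [← mul_assoc] at h4 <;> omega
  · rw [if_neg (by omega), if_pos (by omega), if_pos (by omega), if_neg (by omega), if_neg (by omega)]
    ring
  · rw [if_pos (by omega), if_neg (by omega), if_neg (by omega), if_neg (by omega), if_pos (by omega)]
    ring
  · exfalso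
    rcases lenL cs i (x * cs.simple j) with h4 | h4 <;> rw [← mul_assoc] at h4 <;> omega
  · have h4 := eq_of_len cs (i := i) (j := j) (x := x) (by omega) (by omega)
    rw [if_pos (by omega), if_neg (by omega), if_pos (by omega), if_pos (by omega), if_neg (by omega),
      if_pos (by omega), h4, hp i j x h4]
  · rw [if_pos (by omega), if_pos (by omega), if_pos (by omega), if_pos (by omega), if_pos (by omega),
      if_pos (by omega)]
    ring


/-! ### Basis vectors and words -/

section Words

/-- Left multiplication by a word. -/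
noncomputable def LL (t : I → ℝ) (ω : List I) : Module.End ℂ (W → ℂ) := (ω.map (L cs t)).prod

/-- Right multiplication by the reverse of a word. -/
noncomputable def RR (t : I → ℝ) (ω : List I) : Module.End ℂ (W → ℂ) := (ω.map (R cs t)).prod

theorem LL_nil (t : I → ℝ) : LL cs t [] = 1 := rfl

theorem RR_nil (t : I → ℝ) : RR cs t [] = 1 := rfl

theorem LL_cons (t : I → ℝ) (i : I) (ω : List I) : LL cs t (i :: ω) = L cs t i * LL cs t ω := by
  unfold LL
  rw [List.map_cons, List.prod_cons]

theorem RR_cons (t : I → ℝ) (i : I) (ω : List I) : RR cs t (i :: ω) = R cs t i * RR cs t ω := by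
  unfold RR
  rw [List.map_cons, List.prod_cons]

theorem LL_append (t : I → ℝ) (ω ω' : List I) : LL cs t (ω ++ ω') = LL cs t ω * LL cs t ω' := by
  unfold LL
  rw [List.map_append, List.prod_append]

theorem commL {t : I → ℝ} (hp : Par cs t) (ω : List I) (j : I) : LL cs t ω * R cs t j = R cs t j * LL cs t ω := by
  induction ω with
  | nil => rw [LL_nil, one_mul, mul_one]
  | cons i ω ih => rw [LL_cons, mul_assoc, ih, ← mul_assoc, comm cs hp, mul_assoc]

theorem commR {t : I → ℝ} (hp : Par cs t) (ω : List I) (j : I) : L cs t j * RR cs t ω = RR cs t ω * L cs t j := by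
  induction ω with
  | nil => rw [RR_nil, one_mul, mul_one]
  | cons i ω ih => rw [RR_cons, ← mul_assoc, comm cs hp, mul_assoc, ih, mul_assoc]

theorem commLR {t : I → ℝ} (hp : Par cs t) (ω ω' : List I) : LL cs t ω * RR cs t ω' = RR cs t ω' * LL cs t ω := by
  induction ω' with
  | nil => rw [RR_nil, one_mul, mul_one]
  | cons i ω' ih => rw [RR_cons, ← mul_assoc, commL cs hp, mul_assoc, ih, mul_assoc]

theorem reduced_tail {i : I} {ω : List I} (h : cs.IsReduced (i :: ω)) : cs.IsReduced ω := by
  have := h.drop 1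
  simpa using this

/-- A reduced word of `w`. -/
noncomputable def wd (w : W) : List I := (cs.exists_isReduced w).choose

theorem wd_reduced (w : W) : cs.IsReduced (wd cs w) := (cs.exists_isReduced w).choose_spec.1

theorem wd_prod (w : W) : cs.wordProd (wd cs w) = w := (cs.exists_isReduced w).choose_spec.2.symm

theorem wd_one : wd cs (1 : W) = [] := by
  have h := (wd_reduced cs (1 : W)).eq
  rw [wd_prod, cs.length_one] at h
  exact List.length_eq_zero_iff.1 h.symm

theorem key {t : I → ℝ} (hp : Par cs t) (i : I) : (L cs t i - R cs t i) * ((t i : ℂ) • 1 + L cs t i * R cs t i) = 0 := by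
  have h1 : L cs t i * (L cs t i * R cs t i) = ((t i : ℂ) - 1) • (L cs t i * R cs t i) + (t i : ℂ) • R cs t i := by
    rw [← mul_assoc, L_sq, add_mul, smul_mul_assoc, smul_mul_assoc, one_mul]
  have h2 : R cs t i * (L cs t i * R cs t i) = ((t i : ℂ) - 1) • (L cs t i * R cs t i) + (t i : ℂ) • L cs t i := by
    rw [comm cs hp, ← mul_assoc, R_sq, add_mul, smul_mul_assoc, smul_mul_assoc, one_mul]
  rw [sub_mul, mul_add, mul_add, h1, h2, mul_smul_comm, mul_smul_comm, mul_one, mul_one]
  abel

variable [DecidableEq W]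

/-- The basis vector `T_w`. -/
noncomputable def e (w : W) : W → ℂ := Pi.single w 1

theorem L_e (t : I → ℝ) {i : I} {w : W} (h : cs.length w < cs.length (cs.simple i * w)) :
    L cs t i (e w) = e (cs.simple i * w) := by
  funext x
  rw [L_apply]
  unfold e
  by_cases hx : x = cs.simple i * w
  · subst hx
    have h1 : cs.simple i * (cs.simple i * w) = w := by simp
    have h2 : cs.simple i * w ≠ w := fun h3 => by rw [h3] at h; omega
    rw [h1, if_pos h, Pi.single_eq_same, Pi.single_eq_same, Pi.single_eq_of_ne h2]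
    ring
  · have h1 : cs.simple i * x ≠ w := by
      rintro rfl
      exact hx (by simp)
    rw [Pi.single_eq_of_ne h1, Pi.single_eq_of_ne hx]
    by_cases hxw : x = w
    · subst hxw
      rw [if_neg (by omega)]
      ring
    · rw [Pi.single_eq_of_ne hxw]
      split_ifs <;> ring

theorem R_e (t : I → ℝ) {i : I} {w : W} (h : cs.length w < cs.length (w * cs.simple i)) :
    R cs t i (e w) = e (w * cs.simple i) := by
  funext x
  rw [R_apply]
  unfold e
  by_cases hx : x = w * cs.simple i
  · subst hx
    have h1 : w * cs.simple i * cs.simple i = w := by simp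
    have h2 : w * cs.simple i ≠ w := fun h3 => by rw [h3] at h; omega
    rw [h1, if_pos h, Pi.single_eq_same, Pi.single_eq_same, Pi.single_eq_of_ne h2]
    ring
  · have h1 : x * cs.simple i ≠ w := by
      rintro rfl
      exact hx (by simp)
    rw [Pi.single_eq_of_ne h1, Pi.single_eq_of_ne hx]
    by_cases hxw : x = w
    · subst hxw
      rw [if_neg (by omega)]
      ring
    · rw [Pi.single_eq_of_ne hxw]
      split_ifs <;> ring

theorem LL_e_one (t : I → ℝ) {ω : List I} (h : cs.IsReduced ω) : LL cs t ω (e 1) = e (cs.wordProd ω) := by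
  induction ω with
  | nil => rw [LL_nil, Module.End.one_apply, wordProd_nil]
  | cons i ω ih =>
    have h1 := reduced_tail cs h
    rw [LL_cons, Module.End.mul_apply, ih h1, L_e, wordProd_cons]
    rw [← wordProd_cons, h.eq, h1.eq, List.length_cons]
    omega

theorem RR_e_one (t : I → ℝ) {ω : List I} (h : cs.IsReduced ω) : RR cs t ω (e 1) = e (cs.wordProd ω)⁻¹ := by
  induction ω with
  | nil => rw [RR_nil, Module.End.one_apply, wordProd_nil, inv_one]
  | cons i ω ih =>
    have h1 := reduced_tail cs h
    rw [RR_cons, Module.End.mul_apply, ih h1, R_e, wordProd_cons, mul_inv_rev, cs.inv_simple]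
    have h2 : (cs.wordProd ω)⁻¹ * cs.simple i = (cs.wordProd (i :: ω))⁻¹ := by
      rw [wordProd_cons, mul_inv_rev, cs.inv_simple]
    rw [h2, cs.length_inv, cs.length_inv, h.eq, h1.eq, List.length_cons]
    omega

/-- Two operators which commute with all right multiplications and agree at `T_1` agree. -/
theorem ext_left [Fintype W] {t : I → ℝ} {a b : Module.End ℂ (W → ℂ)}
    (ha : ∀ ω, a * RR cs t ω = RR cs t ω * a) (hb : ∀ ω, b * RR cs t ω = RR cs t ω * b)
    (h : a (e 1) = b (e 1)) : a = b := by
  refine LinearMap.pi_ext' fun x => ?_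
  apply LinearMap.ext_ring
  obtain ⟨ω, hω, hx⟩ := cs.exists_isReduced x⁻¹
  have h1 : RR cs t ω (e 1) = e x := by rw [RR_e_one cs t hω, ← hx, inv_inv]
  have h2 : ∀ c : Module.End ℂ (W → ℂ), (∀ ω, c * RR cs t ω = RR cs t ω * c) → c (e x) = RR cs t ω (c (e 1)) := by
    intro c hc
    rw [← h1, ← Module.End.mul_apply, hc, Module.End.mul_apply]
  simp only [LinearMap.comp_apply, LinearMap.single_apply]
  exact (h2 a ha).trans ((congrArg _ h).trans (h2 b hb).symm)

/-- Two operators which commute with all left multiplications and agree at `T_1` agree. -/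
theorem ext_right [Fintype W] {t : I → ℝ} {a b : Module.End ℂ (W → ℂ)}
    (ha : ∀ ω, a * LL cs t ω = LL cs t ω * a) (hb : ∀ ω, b * LL cs t ω = LL cs t ω * b)
    (h : a (e 1) = b (e 1)) : a = b := by
  refine LinearMap.pi_ext' fun x => ?_
  apply LinearMap.ext_ring
  obtain ⟨ω, hω, hx⟩ := cs.exists_isReduced x
  have h1 : LL cs t ω (e 1) = e x := by rw [LL_e_one cs t hω, ← hx]
  have h2 : ∀ c : Module.End ℂ (W → ℂ), (∀ ω, c * LL cs t ω = LL cs t ω * c) → c (e x) = LL cs t ω (c (e 1)) := by
    intro c hc
    rw [← h1, ← Module.End.mul_apply, hc, Module.End.mul_apply]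
  simp only [LinearMap.comp_apply, LinearMap.single_apply]
  exact (h2 a ha).trans ((congrArg _ h).trans (h2 b hb).symm)

theorem LL_wd_mul [Fintype W] {t : I → ℝ} (hp : Par cs t) {i : I} {w : W} (h : cs.length w < cs.length (cs.simple i * w)) :
    LL cs t (wd cs (cs.simple i * w)) = L cs t i * LL cs t (wd cs w) := by
  apply ext_left cs (t := t)
  · exact fun ω => commLR cs hp _ ω
  · intro ω
    rw [← LL_cons]
    exact commLR cs hp _ ω
  · rw [LL_e_one cs t (wd_reduced cs _), wd_prod, Module.End.mul_apply, LL_e_one cs t (wd_reduced cs _), wd_prod, L_e cs t h]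

theorem RR_wd_mul [Fintype W] {t : I → ℝ} (hp : Par cs t) {i : I} {w : W} (h : cs.length w < cs.length (cs.simple i * w)) :
    RR cs t (wd cs (cs.simple i * w)) = R cs t i * RR cs t (wd cs w) := by
  have h1 : w⁻¹ * cs.simple i = (cs.simple i * w)⁻¹ := by rw [mul_inv_rev, cs.inv_simple]
  apply ext_right cs (t := t)
  · exact fun ω => (commLR cs hp ω _).symm
  · intro ω
    rw [← RR_cons]
    exact (commLR cs hp ω _).symm
  · rw [RR_e_one cs t (wd_reduced cs _), wd_prod, Module.End.mul_apply, RR_e_one cs t (wd_reduced cs _), wd_prod, R_e, h1]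
    rw [h1, cs.length_inv, cs.length_inv]
    exact h

/-- `x ↦ T_w x T_{w⁻¹}`. -/
noncomputable def A (t : I → ℝ) (w : W) : Module.End ℂ (W → ℂ) := LL cs t (wd cs w) * RR cs t (wd cs w)

theorem A_mul [Fintype W] {t : I → ℝ} (hp : Par cs t) {i : I} {w : W} (h : cs.length w < cs.length (cs.simple i * w)) :
    A cs t (cs.simple i * w) = L cs t i * R cs t i * A cs t w := by
  unfold A
  rw [LL_wd_mul cs hp h, RR_wd_mul cs hp h, mul_assoc (L cs t i), ← mul_assoc (LL cs t _) (R cs t i), commL cs hp]
  simp only [mul_assoc]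

/-- The product of the parameters along a reduced word. -/
noncomputable def wt (t : I → ℝ) (w : W) : ℝ := ((wd cs w).map t).prod

theorem L_const (t : I → ℝ) (i : I) : L cs t i (fun _ => 1) = (t i : ℂ) • (fun _ => 1) := by
  funext x
  rw [L_apply, Pi.smul_apply, smul_eq_mul]
  split_ifs <;> ring

theorem LL_const (t : I → ℝ) (ω : List I) :
    LL cs t ω (fun _ => 1) = (((ω.map t).prod : ℝ) : ℂ) • (fun _ => 1) := by
  induction ω with
  | nil => rw [LL_nil, Module.End.one_apply, List.map_nil, List.prod_nil, Complex.ofReal_one, one_smul]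
  | cons i ω ih =>
    rw [LL_cons, Module.End.mul_apply, ih, map_smul, L_const, List.map_cons, List.prod_cons, Complex.ofReal_mul,
      smul_smul, mul_comm]

theorem wt_mul [Fintype W] {t : I → ℝ} (hp : Par cs t) {i : I} {w : W}
    (h : cs.length w < cs.length (cs.simple i * w)) : wt cs t (cs.simple i * w) = t i * wt cs t w := by
  have h1 := congrArg (fun a => a (fun _ => (1 : ℂ))) (LL_wd_mul cs hp h)
  simp only [Module.End.mul_apply] at h1
  rw [LL_const, LL_const, map_smul, L_const, smul_smul] at h1
  have h2 := congrFun h1 1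
  rw [Pi.smul_apply, Pi.smul_apply, smul_eq_mul, smul_eq_mul, mul_one, mul_one, ← Complex.ofReal_mul] at h2
  have h3 := Complex.ofReal_injective h2
  unfold wt
  rw [h3, mul_comm]

theorem wt_one (t : I → ℝ) : wt cs t 1 = 1 := by
  unfold wt
  rw [wd_one, List.map_nil, List.prod_nil]

theorem wt_pos {t : I → ℝ} (ht : ∀ i, 0 < t i) (w : W) : 0 < wt cs t w := by
  unfold wt
  apply List.prod_pos
  intro a ha
  obtain ⟨i, -, rfl⟩ := List.mem_map.1 ha
  exact ht i

/-- The Casimir operator. -/
noncomputable def Cas [Fintype W] (t : I → ℝ) : Module.End ℂ (W → ℂ) := ∑ w : W, ((wt cs t w : ℝ) : ℂ)⁻¹ • A cs t w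

theorem pair_zero [Fintype W] {t : I → ℝ} (hp : Par cs t) (ht : ∀ i, 0 < t i) {i : I} {w : W}
    (h : cs.length w < cs.length (cs.simple i * w)) :
    (L cs t i - R cs t i) * (((wt cs t w : ℝ) : ℂ)⁻¹ • A cs t w) +
      (L cs t i - R cs t i) * (((wt cs t (cs.simple i * w) : ℝ) : ℂ)⁻¹ • A cs t (cs.simple i * w)) = 0 := by
  have ht' : (t i : ℂ) ≠ 0 := by exact_mod_cast (ht i).ne'
  have h1 : ((wt cs t w : ℝ) : ℂ)⁻¹ • A cs t w +
      ((wt cs t (cs.simple i * w) : ℝ) : ℂ)⁻¹ • A cs t (cs.simple i * w) =
      ((wt cs t (cs.simple i * w) : ℝ) : ℂ)⁻¹ • (((t i : ℂ) • 1 + L cs t i * R cs t i) * A cs t w) := by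
    rw [wt_mul cs hp h, A_mul cs hp h, add_mul, smul_add, smul_mul_assoc, one_mul, smul_smul]
    congr 2
    rw [Complex.ofReal_mul, mul_inv, mul_comm ((t i : ℂ)⁻¹), mul_assoc, inv_mul_cancel₀ ht', mul_one]
  rw [← mul_add, h1, mul_smul_comm, ← mul_assoc, key cs hp, zero_mul, smul_zero]

theorem Cas_central [Fintype W] {t : I → ℝ} (hp : Par cs t) (ht : ∀ i, 0 < t i) (i : I) :
    (L cs t i - R cs t i) * Cas cs t = 0 := by
  unfold Cas
  rw [Finset.mul_sum]
  refine Finset.sum_involution (fun w _ => cs.simple i * w) ?_ ?_ ?_ ?_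
  · intro w _
    rcases lenL cs i w with h | h
    · exact pair_zero cs hp ht (by omega)
    · have h1 : cs.simple i * (cs.simple i * w) = w := by simp
      have h2 := pair_zero cs hp ht (i := i) (w := cs.simple i * w) (by rw [h1]; omega)
      rw [h1, add_comm] at h2
      exact h2
  · intro w _ _ hw
    rcases lenL cs i w with h | h
    · rw [hw] at h; omega
    · rw [hw] at h; omega
  · intro w _
    exact Finset.mem_univ _
  · intro w _
    simp

end Words

/-! ### The centre -/

/-- The centre of the Hecke algebra. -/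
noncomputable def Z (t : I → ℝ) : Submodule ℂ (W → ℂ) := ⨅ i, LinearMap.ker (L cs t i - R cs t i)

theorem mem_Z {t : I → ℝ} {v : W → ℂ} : v ∈ Z cs t ↔ ∀ i, L cs t i v = R cs t i v := by
  unfold Z
  rw [Submodule.mem_iInf]
  refine forall_congr' fun i => ?_
  rw [LinearMap.mem_ker, LinearMap.sub_apply, sub_eq_zero]

theorem RR_of_mem_Z {t : I → ℝ} (hp : Par cs t) {v : W → ℂ} (hv : v ∈ Z cs t) (ω : List I) :
    RR cs t ω v = LL cs t ω.reverse v := by
  induction ω with
  | nil => rw [RR_nil, List.reverse_nil, LL_nil]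
  | cons i ω ih =>
    rw [RR_cons, Module.End.mul_apply, ih, List.reverse_cons, LL_append, Module.End.mul_apply, LL_cons, LL_nil,
      mul_one, (mem_Z cs).1 hv i, ← Module.End.mul_apply, ← commL cs hp, Module.End.mul_apply]

section Form

variable [Fintype W]

/-- The hermitian form `⟨T_x, T_y⟩ = t_x δ_{xy}`. -/
noncomputable def ip (t : I → ℝ) (u v : W → ℂ) : ℂ := ∑ x, (wt cs t x : ℂ) * (u x * conj (v x))

theorem ip_sum_left {ι : Type*} (s : Finset ι) (t : I → ℝ) (f : ι → W → ℂ) (v : W → ℂ) :
    ip cs t (∑ a ∈ s, f a) v = ∑ a ∈ s, ip cs t (f a) v := by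
  unfold ip
  rw [Finset.sum_comm]
  refine Finset.sum_congr rfl fun x _ => ?_
  rw [Finset.sum_apply, Finset.sum_mul, Finset.mul_sum]

theorem ip_smul_left (t : I → ℝ) (c : ℂ) (u v : W → ℂ) : ip cs t (c • u) v = c * ip cs t u v := by
  unfold ip
  rw [Finset.mul_sum]
  refine Finset.sum_congr rfl fun x _ => ?_
  rw [Pi.smul_apply, smul_eq_mul]
  ring

/-- `L i` is self-adjoint. -/
theorem ip_L {t : I → ℝ} (hp : Par cs t) (i : I) (u v : W → ℂ) :
    ip cs t (L cs t i u) v = ip cs t u (L cs t i v) := by
  classical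
  rw [← sub_eq_zero]
  unfold ip
  rw [← Finset.sum_sub_distrib]
  refine Finset.sum_involution (fun w _ => cs.simple i * w) ?_ ?_ ?_ ?_
  · intro w _
    have h1 : cs.simple i * (cs.simple i * w) = w := by simp
    rw [L_apply, L_apply, L_apply, L_apply, h1]
    rcases lenL cs i w with h | h
    · rw [if_neg (by omega), if_neg (by omega), if_pos (by omega), if_pos (by omega),
        wt_mul cs hp (i := i) (w := w) (by omega)]
      simp only [map_add, map_mul, map_sub, map_one, Complex.conj_ofReal, Complex.ofReal_mul]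
      ring
    · have h2 := wt_mul cs hp (i := i) (w := cs.simple i * w) (by rw [h1]; omega)
      rw [h1] at h2
      rw [if_pos (by omega), if_pos (by omega), if_neg (by omega), if_neg (by omega), h2]
      simp only [map_add, map_mul, map_sub, map_one, Complex.conj_ofReal, Complex.ofReal_mul]
      ring
  · intro w _ _ hw
    rcases lenL cs i w with h | h <;> rw [hw] at h <;> omega
  · intro w _
    exact Finset.mem_univ _
  · intro w _
    simp

theorem ip_LL {t : I → ℝ} (hp : Par cs t) (ω : List I) (u v : W → ℂ) :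
    ip cs t (LL cs t ω u) v = ip cs t u (LL cs t ω.reverse v) := by
  induction ω generalizing v with
  | nil => rw [LL_nil, List.reverse_nil, LL_nil]; rfl
  | cons i ω ih =>
    rw [LL_cons, Module.End.mul_apply, ip_L cs hp, ih, List.reverse_cons, LL_append, Module.End.mul_apply, LL_cons,
      LL_nil, mul_one]

/-- The norm. -/
noncomputable def nm (t : I → ℝ) (v : W → ℂ) : ℝ := ∑ x, wt cs t x * Complex.normSq (v x)

theorem ip_self (t : I → ℝ) (v : W → ℂ) : ip cs t v v = (nm cs t v : ℂ) := by
  unfold ip nm
  rw [Complex.ofReal_sum]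
  refine Finset.sum_congr rfl fun x _ => ?_
  rw [Complex.mul_conj, Complex.ofReal_mul]

theorem nm_nonneg {t : I → ℝ} (ht : ∀ i, 0 < t i) (v : W → ℂ) : 0 ≤ nm cs t v := by
  classical
  exact Finset.sum_nonneg fun x _ => mul_nonneg (wt_pos cs ht _).le (Complex.normSq_nonneg _)

theorem eq_zero_of_nm {t : I → ℝ} (ht : ∀ i, 0 < t i) {v : W → ℂ} (h : nm cs t v = 0) : v = 0 := by
  classical
  funext x
  have h1 := (Finset.sum_eq_zero_iff_of_nonneg
    (fun y _ => mul_nonneg (wt_pos cs ht _).le (Complex.normSq_nonneg (v y)))).1 h x (Finset.mem_univ _)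
  exact Complex.normSq_eq_zero.1 ((mul_eq_zero.1 h1).resolve_left (wt_pos cs ht _).ne')

/-- The Casimir operator is injective on the centre. -/
theorem eq_zero_of_Cas {t : I → ℝ} (hp : Par cs t) (ht : ∀ i, 0 < t i) {z : W → ℂ} (hz : z ∈ Z cs t)
    (h : Cas cs t z = 0) : z = 0 := by
  classical
  have h1 : ip cs t (Cas cs t z) z =
      ((∑ w : W, (wt cs t w)⁻¹ * nm cs t (LL cs t (wd cs w).reverse z) : ℝ) : ℂ) := by
    unfold Cas
    rw [LinearMap.sum_apply, ip_sum_left, Complex.ofReal_sum]
    refine Finset.sum_congr rfl fun w _ => ?_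
    rw [LinearMap.smul_apply, ip_smul_left, Complex.ofReal_mul, Complex.ofReal_inv, ← ip_self]
    congr 1
    unfold A
    rw [Module.End.mul_apply, ip_LL cs hp, RR_of_mem_Z cs hp hz]
  have h2 : ip cs t (Cas cs t z) z = 0 := by
    rw [h]
    unfold ip
    simp
  rw [h1] at h2
  have h3 : ∑ w : W, (wt cs t w)⁻¹ * nm cs t (LL cs t (wd cs w).reverse z) = 0 := by exact_mod_cast h2
  have h4 := (Finset.sum_eq_zero_iff_of_nonneg (fun w _ =>
    mul_nonneg (inv_pos.2 (wt_pos cs ht _)).le (nm_nonneg cs ht _))).1 h3 1 (Finset.mem_univ _)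
  rw [wd_one, wt_one, inv_one, one_mul, List.reverse_nil, LL_nil, Module.End.one_apply] at h4
  exact eq_zero_of_nm cs ht h4

theorem Cas_mem_Z {t : I → ℝ} (hp : Par cs t) (ht : ∀ i, 0 < t i) (v : W → ℂ) : Cas cs t v ∈ Z cs t := by
  classical
  rw [mem_Z]
  intro i
  have h1 := congrArg (fun f => f v) (Cas_central cs hp ht i)
  simp only [Module.End.mul_apply, LinearMap.sub_apply, LinearMap.zero_apply] at h1
  exact sub_eq_zero.1 h1

end Form

/-! ### The inversion -/

/-- The inversion `v ↦ (w ↦ v w⁻¹)`. -/
def J : Module.End ℂ (W → ℂ) := LinearMap.funLeft ℂ ℂ (fun w : W => w⁻¹)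

theorem J_apply (v : W → ℂ) (w : W) : J v w = v w⁻¹ := rfl

theorem J_J (v : W → ℂ) : J (J v) = v := by
  funext w
  rw [J_apply, J_apply, inv_inv]

theorem J_L (t : I → ℝ) (i : I) (v : W → ℂ) : J (L cs t i v) = R cs t i (J v) := by
  funext w
  have h1 : (w * cs.simple i)⁻¹ = cs.simple i * w⁻¹ := by rw [mul_inv_rev, cs.inv_simple]
  rw [J_apply, L_apply, R_apply, J_apply, J_apply, h1, cs.length_inv, ← h1, cs.length_inv]

theorem J_R (t : I → ℝ) (i : I) (v : W → ℂ) : J (R cs t i v) = L cs t i (J v) := by
  have h1 := J_L cs t i (J v)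
  rw [J_J] at h1
  rw [← h1, J_J]

theorem J_LL (t : I → ℝ) (ω : List I) (v : W → ℂ) : J (LL cs t ω v) = RR cs t ω (J v) := by
  induction ω with
  | nil => rw [LL_nil, RR_nil]; rfl
  | cons i ω ih => rw [LL_cons, RR_cons, Module.End.mul_apply, Module.End.mul_apply, J_L, ih]

theorem J_RR (t : I → ℝ) (ω : List I) (v : W → ℂ) : J (RR cs t ω v) = LL cs t ω (J v) := by
  induction ω with
  | nil => rw [LL_nil, RR_nil]; rfl
  | cons i ω ih => rw [LL_cons, RR_cons, Module.End.mul_apply, Module.End.mul_apply, J_R, ih]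

theorem J_A {t : I → ℝ} (hp : Par cs t) (w : W) (v : W → ℂ) : J (A cs t w v) = A cs t w (J v) := by
  unfold A
  rw [Module.End.mul_apply, J_LL, J_RR, ← Module.End.mul_apply, ← commLR cs hp, Module.End.mul_apply]

theorem J_Cas [Fintype W] [DecidableEq W] {t : I → ℝ} (hp : Par cs t) (v : W → ℂ) : J (Cas cs t v) = Cas cs t (J v) := by
  unfold Cas
  rw [LinearMap.sum_apply, LinearMap.sum_apply, map_sum]
  refine Finset.sum_congr rfl fun w _ => ?_
  rw [LinearMap.smul_apply, LinearMap.smul_apply, map_smul, J_A cs hp]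

end Cfsg.Agent.H139.Hecke
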