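import Cfsg.Agent.H139.Hecke.Gen
import Cfsg.Agent.H116.HeckeB

/-!
# Central elements of the Hecke algebra are symmetric if every element of the Weyl group is real (helper139)

* `symm_of_mem_Z` : if `w` is conjugate to `w⁻¹` for all `w : W` then `v w⁻¹ = v w` for every `v` in the centre of
  the Hecke algebra with positive real parameters.

The antisymmetric part of the centre has constant dimension along the path `s ↦ (t i)^s` (lower semicontinuity of
the ranks of the Casimir operator and of the operators defining the centre), and is zero for `s = 0`.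
-/

set_option autoImplicit false
set_option linter.unusedSectionVars false

namespace Cfsg.Agent.H139.Hecke

open CoxeterSystem Module Filter Topology

section

variable {I W : Type*} {M : CoxeterMatrix I} [Group W] (cs : CoxeterSystem M W) [Fintype W]

/-! ### Continuity -/

variable {τ : ℝ → I → ℝ} (hτ : ∀ i, Continuous fun s => τ s i)

include hτ

theorem continuous_L (i : I) : Continuous fun p : ℝ × (W → ℂ) => L cs (τ p.1) i p.2 := by
  have h1 : Continuous fun p : ℝ × (W → ℂ) => ((τ p.1 i : ℝ) : ℂ) :=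
    Complex.continuous_ofReal.comp ((hτ i).comp continuous_fst)
  refine continuous_pi fun x => ?_
  simp only [L_apply]
  split_ifs
  · exact ((continuous_apply _).comp continuous_snd).add
      ((h1.sub continuous_const).mul ((continuous_apply _).comp continuous_snd))
  · exact h1.mul ((continuous_apply _).comp continuous_snd)

theorem continuous_R (i : I) : Continuous fun p : ℝ × (W → ℂ) => R cs (τ p.1) i p.2 := by
  have h1 : Continuous fun p : ℝ × (W → ℂ) => ((τ p.1 i : ℝ) : ℂ) :=
    Complex.continuous_ofReal.comp ((hτ i).comp continuous_fst)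
  refine continuous_pi fun x => ?_
  simp only [R_apply]
  split_ifs
  · exact ((continuous_apply _).comp continuous_snd).add
      ((h1.sub continuous_const).mul ((continuous_apply _).comp continuous_snd))
  · exact h1.mul ((continuous_apply _).comp continuous_snd)

theorem continuous_LL (ω : List I) : Continuous fun p : ℝ × (W → ℂ) => LL cs (τ p.1) ω p.2 := by
  induction ω with
  | nil => simpa only [LL_nil, Module.End.one_apply] using continuous_snd
  | cons i ω ih =>
    simp only [LL_cons, Module.End.mul_apply]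
    exact (continuous_L cs hτ i).comp (continuous_fst.prodMk ih)

theorem continuous_RR (ω : List I) : Continuous fun p : ℝ × (W → ℂ) => RR cs (τ p.1) ω p.2 := by
  induction ω with
  | nil => simpa only [RR_nil, Module.End.one_apply] using continuous_snd
  | cons i ω ih =>
    simp only [RR_cons, Module.End.mul_apply]
    exact (continuous_R cs hτ i).comp (continuous_fst.prodMk ih)

theorem continuous_A (w : W) : Continuous fun p : ℝ × (W → ℂ) => A cs (τ p.1) w p.2 := by
  unfold A
  simp only [Module.End.mul_apply]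
  exact (continuous_LL cs hτ _).comp (continuous_fst.prodMk (continuous_RR cs hτ _))

theorem continuous_wt (w : W) : Continuous fun s : ℝ => wt cs (τ s) w := by
  unfold wt
  induction wd cs w with
  | nil => simpa using continuous_const
  | cons i ω ih =>
    simp only [List.map_cons, List.prod_cons]
    exact (hτ i).mul ih

theorem continuous_wtInv (hpos : ∀ s i, 0 < τ s i) (w : W) :
    Continuous fun s : ℝ => ((wt cs (τ s) w : ℝ) : ℂ)⁻¹ := by
  classical
  have h1 : ∀ s, ((wt cs (τ s) w : ℝ) : ℂ) ≠ 0 := fun s => by exact_mod_cast (wt_pos cs (hpos s) w).ne'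
  exact (Complex.continuous_ofReal.comp (continuous_wt cs hτ w)).inv₀ h1

theorem continuous_Av (w : W) (v : W → ℂ) : Continuous fun s : ℝ => A cs (τ s) w v := by
  have h1 : Continuous fun s : ℝ => ((s, v) : ℝ × (W → ℂ)) := continuous_id.prodMk continuous_const
  have h2 := (continuous_A cs hτ w).comp h1
  simp only [Function.comp_def] at h2
  exact h2

theorem continuous_Cas (hpos : ∀ s i, 0 < τ s i) (v : W → ℂ) : Continuous fun s => Cas cs (τ s) v := by
  have h0 : (fun s => Cas cs (τ s) v) = fun s => ∑ w : W, ((wt cs (τ s) w : ℝ) : ℂ)⁻¹ • A cs (τ s) w v := by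
    funext s
    unfold Cas
    rw [LinearMap.sum_apply]
    rfl
  rw [h0]
  refine continuous_finsetSum _ fun w _ => ?_
  exact (continuous_wtInv cs hτ hpos w).smul (continuous_Av cs hτ w v)

omit hτ

/-! ### The antisymmetric part -/

/-- The antisymmetric functions. -/
noncomputable def Em (W : Type*) [Group W] : Submodule ℂ (W → ℂ) := LinearMap.ker (J + 1 : Module.End ℂ (W → ℂ))

omit [Fintype W] in
theorem mem_Em {v : W → ℂ} : v ∈ Em W ↔ J v = -v := by
  unfold Em
  rw [LinearMap.mem_ker, LinearMap.add_apply, Module.End.one_apply, add_eq_zero_iff_eq_neg]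

/-- The operators whose common kernel is the centre. -/
noncomputable def Mt (t : I → ℝ) : (W → ℂ) →ₗ[ℂ] (I → (W → ℂ)) := LinearMap.pi fun i => L cs t i - R cs t i

theorem ker_Mt (t : I → ℝ) : LinearMap.ker (Mt cs t) = Z cs t := LinearMap.ker_pi _

/-- The antisymmetric part of the centre. -/
noncomputable def Zm (t : I → ℝ) : Submodule ℂ (W → ℂ) := Z cs t ⊓ Em W

theorem finrank_range_Cas {t : I → ℝ} (hp : Par cs t) (ht : ∀ i, 0 < t i) :
    finrank ℂ (LinearMap.range (Cas cs t ∘ₗ (Em W).subtype)) = finrank ℂ (Zm cs t) := by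
  classical
  apply le_antisymm
  · apply Submodule.finrank_mono
    rintro _ ⟨v, rfl⟩
    refine ⟨Cas_mem_Z cs hp ht _, ?_⟩
    rw [SetLike.mem_coe, mem_Em, LinearMap.comp_apply, J_Cas cs hp, Submodule.subtype_apply, mem_Em.1 v.2, map_neg]
  · let f : Zm cs t →ₗ[ℂ] LinearMap.range (Cas cs t ∘ₗ (Em W).subtype) :=
      (Cas cs t ∘ₗ (Em W).subtype).rangeRestrict ∘ₗ Submodule.inclusion (inf_le_right : Zm cs t ≤ Em W)
    apply LinearMap.finrank_le_finrank_of_injective (f := f)
    rw [← LinearMap.ker_eq_bot, LinearMap.ker_eq_bot']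
    intro z hz
    have h1 : Cas cs t (z : W → ℂ) = 0 := congrArg Subtype.val hz
    exact Subtype.ext (eq_zero_of_Cas cs hp ht z.2.1 h1)

theorem finrank_ker_Mt (t : I → ℝ) :
    finrank ℂ (LinearMap.ker (Mt cs t ∘ₗ (Em W).subtype)) = finrank ℂ (Zm cs t) := by
  rw [← Submodule.finrank_map_subtype_eq (Em W) (LinearMap.ker (Mt cs t ∘ₗ (Em W).subtype))]
  have h1 : (LinearMap.ker (Mt cs t ∘ₗ (Em W).subtype)).map (Em W).subtype = Zm cs t := by
    ext v
    unfold Zm
    rw [Submodule.mem_map, Submodule.mem_inf, ← ker_Mt]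
    constructor
    · rintro ⟨u, hu, rfl⟩
      exact ⟨hu, u.2⟩
    · rintro ⟨h2, h3⟩
      exact ⟨⟨v, h3⟩, h2, rfl⟩
  rw [h1]

theorem eventually_eq [Finite I] (hτ : ∀ i, Continuous fun s => τ s i) (hpar : ∀ s, Par cs (τ s))
    (hpos : ∀ s i, 0 < τ s i) (s₀ : ℝ) :
    ∀ᶠ s in 𝓝 s₀, finrank ℂ (Zm cs (τ s)) = finrank ℂ (Zm cs (τ s₀)) := by
  have : Fintype I := Fintype.ofFinite I
  have hc1 : ∀ v : Em W, ContinuousAt (fun s => (Cas cs (τ s) ∘ₗ (Em W).subtype) v) s₀ := fun v =>
    (continuous_Cas cs hτ hpos (v : W → ℂ)).continuousAt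
  have hc2 : ∀ v : Em W, ContinuousAt (fun s => (Mt cs (τ s) ∘ₗ (Em W).subtype) v) s₀ := by
    intro v
    refine continuousAt_pi.2 fun i => ?_
    show ContinuousAt (fun s => L cs (τ s) i (v : W → ℂ) - R cs (τ s) i (v : W → ℂ)) s₀
    exact (((continuous_L cs hτ i).comp (continuous_id.prodMk continuous_const)).sub
      ((continuous_R cs hτ i).comp (continuous_id.prodMk continuous_const))).continuousAt
  filter_upwards [Cfsg.Agent.H116.HeckeB.eventually_rank_le (fun s => Cas cs (τ s) ∘ₗ (Em W).subtype) s₀ hc1,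
    Cfsg.Agent.H116.HeckeB.eventually_rank_le (fun s => Mt cs (τ s) ∘ₗ (Em W).subtype) s₀ hc2] with s h1 h2
  rw [finrank_range_Cas cs (hpar _) (hpos _), finrank_range_Cas cs (hpar _) (hpos _)] at h1
  have h4 := LinearMap.finrank_range_add_finrank_ker (Mt cs (τ s) ∘ₗ (Em W).subtype)
  have h5 := LinearMap.finrank_range_add_finrank_ker (Mt cs (τ s₀) ∘ₗ (Em W).subtype)
  rw [finrank_ker_Mt] at h4 h5
  omega

theorem finrank_Zm_const [Finite I] (hτ : ∀ i, Continuous fun s => τ s i) (hpar : ∀ s, Par cs (τ s))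
    (hpos : ∀ s i, 0 < τ s i) (s s' : ℝ) : finrank ℂ (Zm cs (τ s)) = finrank ℂ (Zm cs (τ s')) := by
  have hc : Continuous fun s => finrank ℂ (Zm cs (τ s)) := by
    rw [continuous_iff_continuousAt]
    intro s₀
    exact (continuousAt_const (y := finrank ℂ (Zm cs (τ s₀)))).congr
      ((eventually_eq cs hτ hpar hpos s₀).mono fun t h => h.symm)
  exact PreconnectedSpace.constant inferInstance hc

omit [Fintype W] in
theorem mem_Z_one {v : W → ℂ} : v ∈ Z cs (fun _ => 1) ↔ ∀ g x : W, v (g * x * g⁻¹) = v x := by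
  have h1 : v ∈ Z cs (fun _ => 1) ↔ ∀ i x, v (cs.simple i * x) = v (x * cs.simple i) := by
    rw [mem_Z]
    refine forall_congr' fun i => ?_
    rw [funext_iff]
    refine forall_congr' fun x => ?_
    rw [L_apply, R_apply]
    simp
  rw [h1]
  constructor
  · intro h g
    induction g using cs.simple_induction_left with
    | one => intro x; simp
    | mul_simple_left g i ih =>
      intro x
      have h2 : cs.simple i * g * x * (cs.simple i * g)⁻¹ = cs.simple i * (g * x * g⁻¹ * cs.simple i) := by
        rw [mul_inv_rev, cs.inv_simple]; simp only [mul_assoc]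
      rw [h2, h, mul_assoc, cs.simple_mul_simple_self, mul_one, ih]
  · intro h i x
    rw [← h (cs.simple i) (x * cs.simple i)]
    simp [mul_assoc]

/-- **Central elements are symmetric.** -/
theorem symm_of_mem_Z [Finite I] {t : I → ℝ} (hp : Par cs t) (ht : ∀ i, 0 < t i)
    (hamb : ∀ w : W, IsConj w w⁻¹) {v : W → ℂ} (hv : v ∈ Z cs t) (w : W) : v w⁻¹ = v w := by
  let τ : ℝ → I → ℝ := fun s i => t i ^ s
  have hτ : ∀ i, Continuous fun s => τ s i := fun i => Real.continuous_const_rpow (ht i).ne'
  have hpar : ∀ s, Par cs (τ s) := fun s i j x h => by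
    show t i ^ s = t j ^ s
    rw [hp i j x h]
  have hpos : ∀ s i, 0 < τ s i := fun s i => Real.rpow_pos_of_pos (ht i) s
  have h0 : τ 0 = fun _ => 1 := by
    funext i
    exact Real.rpow_zero _
  have h1 : τ 1 = t := by
    funext i
    exact Real.rpow_one _
  have h2 := finrank_Zm_const cs hτ hpar hpos 1 0
  have h3 : Zm cs (τ 0) = ⊥ := by
    rw [eq_bot_iff]
    rintro u ⟨hu1, hu2⟩
    rw [SetLike.mem_coe, h0, mem_Z_one] at hu1
    rw [SetLike.mem_coe, mem_Em] at hu2
    rw [Submodule.mem_bot]
    funext x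
    obtain ⟨c, hc⟩ := isConj_iff.1 (hamb x)
    have h4 := congrFun hu2 x
    rw [J_apply, ← hc, hu1, Pi.neg_apply] at h4
    exact self_eq_neg.1 h4
  rw [h3, finrank_bot, h1] at h2
  have h4 : Zm cs t = ⊥ := Submodule.finrank_eq_zero.1 h2
  have h5 : v - J v ∈ Zm cs t := by
    refine ⟨?_, ?_⟩
    · refine Submodule.sub_mem _ hv ?_
      rw [mem_Z] at hv ⊢
      intro i
      rw [← J_R, ← J_L, hv i]
    · rw [SetLike.mem_coe, mem_Em, map_sub, J_J, neg_sub]
  rw [h4, Submodule.mem_bot, sub_eq_zero] at h5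
  have h6 := congrFun h5 w
  rw [J_apply] at h6
  exact h6.symm

end

end Cfsg.Agent.H139.Hecke
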